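import Cfsg.Agent.Lib.Fus.Normal
import Cfsg.Agent.Lib.Fus2.Factor

/-!
A saturated fusion system over a 2-group all of whose elements are conjugate into the centre.
-/

set_option autoImplicit false

namespace Cfsg.Agent.Fus

open Cfsg Cfsg.FusionSystem Cfsg.Agent.Fus2

universe u

theorem eq_inv_of_isConjElt_inv {Ω : Type*} [Group Ω] {S : Subgroup Ω} [Finite S]
    {F : FusionSystem S} (hS : IsPGroup 2 S) (hF : F.IsSaturated 2) {x z : Ω}
    (hz : z ∈ Subgroup.centralizer (S : Set Ω)) (h : F.IsConjElt x z) (h' : F.IsConjElt x x⁻¹) :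
    x⁻¹ = x := by
  obtain ⟨f, hf, rfl⟩ := isConjElt_iff.1 h
  have hx := Subgroup.mem_zpowers x
  have h1 := isConjElt_of_M hf (inv_mem hx)
  rw [hf.map_inv hx] at h1
  obtain ⟨g, hg, e⟩ := isConjElt_iff.1 (isConjElt_trans (isConjElt_trans (isConjElt_symm h) h') h1)
  have hz' := Subgroup.mem_zpowers (f x)
  obtain ⟨γ, hγ, eγ⟩ := hg.exists_aut (by rw [img_zpowers hg.homOn, e, Subgroup.zpowers_inv])
  have hext : ∀ β : MulAut (Subgroup.zpowers (f x)), afn β (f x) = f x → β = 1 := fun β hβ =>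
    aut_ext fun y ⟨n, hn⟩ => by
      rw [afn_one, ← hn]
      exact ((homOn_afn β).map_zpow hz' n).trans (by rw [hβ])
  have h2 : γ ^ 2 ^ 1 = 1 := hext _ (by
    rw [pow_one, pow_two, afn_mul, eγ _ hz', e, (homOn_afn γ).map_inv hz', eγ _ hz', e, inv_inv])
  have hc : S ≤ Subgroup.centralizer (Subgroup.zpowers (f x) : Set Ω) :=
    Subgroup.le_centralizer_iff.1 (Subgroup.zpowers_le.2 hz)
  obtain ⟨δ, -, hδ⟩ := (sat_sylow hS hF (isFullyNormalized_of_normal hg.le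
    (hc.trans (Subgroup.centralizer_le_normalizer _)))).exists_conj_mem_of_pow hγ h2
  obtain ⟨s, hs, es⟩ := Fus.mem_autInducedBy_iff.1 hδ
  have h3 := hext _ ((afn_apply _ hz').trans ((es _).trans (by
    rw [hz s hs, mul_inv_cancel_right])))
  have h4 : γ = 1 := by simpa [mul_assoc] using congrArg (fun β => δ⁻¹ * β * δ) h3
  refine hf.inj _ (inv_mem hx) _ hx ?_
  rw [hf.map_inv hx, ← e, ← eγ _ hz', h4, afn_one]

theorem comm_of_isConjElt_center (n : ℕ) : ∀ {Ω : Type u} [Group Ω] {S : Subgroup Ω} [Finite S]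
    (F : FusionSystem S), Nat.card S = n → IsPGroup 2 S → F.IsSaturated 2 →
    (∀ x ∈ S, ∃ z ∈ S ⊓ Subgroup.centralizer (S : Set Ω), F.IsConjElt x z) →
    ∀ x ∈ S, ∀ y ∈ S, x * y = y * x := by
  induction n using Nat.strong_induction_on with
  | _ n ih =>
  intro Ω _ S _ F hn hS hF h
  have hcomm : ∀ s ∈ S, s * s = 1 → ∀ t ∈ S, t * t = 1 → s * t = t * s := by
    intro s hs h1 t ht h2
    obtain ⟨z, hz, hc⟩ := h _ (S.mul_mem hs ht)
    have e : (s * t)⁻¹ = t * s := by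
      rw [mul_inv_rev, inv_eq_of_mul_eq_one_right h1, inv_eq_of_mul_eq_one_right h2]
    have h3 := isConjElt_of_M (M_conj F le_rfl hs) (S.mul_mem hs ht)
    rw [← mul_assoc, h1, one_mul, inv_eq_of_mul_eq_one_right h1, ← e] at h3
    rw [← e, eq_inv_of_isConjElt_inv hS hF hz.2 hc h3]
  let V : Subgroup Ω :=
    { carrier := {x | x ∈ S ∧ x * x = 1}
      one_mem' := ⟨S.one_mem, one_mul 1⟩
      inv_mem' := fun {x} hx => ⟨S.inv_mem hx.1, by rw [← mul_inv_rev, hx.2, inv_one]⟩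
      mul_mem' := fun {x y} hx hy => ⟨S.mul_mem hx.1 hy.1, by
        rw [mul_assoc, ← mul_assoc y, ← hcomm x hx.1 hx.2 y hy.1 hy.2, mul_assoc, hy.2, mul_one,
          hx.2]⟩ }
  have hV : F.StronglyClosed V := stronglyClosed_iff.2 ⟨fun x hx => hx.1,
    fun P f hf x hx hxV => ⟨hf.mem hx, by rw [← hf.map_mul hx hx, hxV.2, hf.map_one]⟩⟩
  have hVn := isNormal_of_sc_of_comm hS hF hV fun x hx y hy => hcomm x hx.1 hx.2 y hy.1 hy.2
  have hVc : ∀ v ∈ V, ∀ x ∈ S, x * v = v * x := by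
    intro v hv x hx
    obtain ⟨z, hz, hc⟩ := h x hx
    obtain ⟨f, hf, rfl⟩ := isConjElt_iff.1 hc
    obtain ⟨g, hg, e, -⟩ := isNormal_ext hVn hf
    have h1 : x ∈ Subgroup.zpowers x ⊔ V := Subgroup.mem_sup_left (Subgroup.mem_zpowers x)
    have h2 : v ∈ Subgroup.zpowers x ⊔ V := Subgroup.mem_sup_right hv
    refine hg.inj _ (mul_mem h1 h2) _ (mul_mem h2 h1) ?_
    rw [hg.map_mul h1 h2, hg.map_mul h2 h1, e x (Subgroup.mem_zpowers x), hz.2 _ (hg.mem h2)]
  by_cases h0 : V = ⊥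
  · have h1 : Nat.card S = 1 := by
      by_contra h1
      obtain ⟨k, hk⟩ := IsPGroup.iff_card.1 hS
      obtain ⟨x, hx⟩ := exists_prime_orderOf_dvd_card' (G := S) 2
        (hk ▸ dvd_pow_self 2 fun e => h1 (by rw [hk, e, pow_zero]))
      have h2 : (x : Ω) ∈ V := ⟨x.2, by
        have := pow_orderOf_eq_one x
        rw [hx, pow_two] at this
        exact congrArg Subtype.val this⟩
      rw [h0, Subgroup.mem_bot] at h2
      rw [show x = 1 from Subtype.ext h2, orderOf_one] at hx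
      omega
    intro x hx y _
    rw [Subgroup.card_eq_one.1 h1, Subgroup.mem_bot] at hx
    rw [hx, one_mul, mul_one]
  have := sc_normal_subgroupOf hV
  obtain ⟨D, hD⟩ := exists_isFactorSystem_mk' hV
  have hθ := surjM_of_factor hS hF hD hV
  have hker := factor_ker hD
  have := hθ.finite
  have hlt : Nat.card (⊤ : Subgroup (S ⧸ V.subgroupOf S)) < n := by
    rw [Subgroup.card_top, ← hn, Subgroup.card_eq_card_quotient_mul_card_subgroup (V.subgroupOf S)]
    refine lt_mul_of_one_lt_right Nat.card_pos ?_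
    rw [Nat.card_congr (Subgroup.subgroupOfEquivOfLe hV.1).toEquiv]
    have := Fus.finite_of_le hV.1
    exact (Subgroup.one_lt_card_iff_ne_bot V).2 h0
  have hab := ih _ hlt D rfl (hθ.isPGroup hS) (hθ.saturated hS hF) fun y hy => by
    obtain ⟨x, hx, rfl⟩ := hθ.surj hy
    obtain ⟨z, hz, hc⟩ := h x hx
    obtain ⟨f, hf, rfl⟩ := isConjElt_iff.1 hc
    obtain ⟨f', hf', e⟩ := hθ.push _ f hf
    refine ⟨_, ⟨trivial, fun w hw => ?_⟩,
      e x (Subgroup.mem_zpowers x) ▸ isConjElt_of_M hf' (mem_img_of_mem _ (Subgroup.mem_zpowers x))⟩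
    obtain ⟨s, hs, rfl⟩ := hθ.surj hw
    rw [← (homOn_fn _).map_mul hs hz.1, hz.2 s hs, (homOn_fn _).map_mul hz.1 hs]
  have hDn := isNormal_top_of_comm (hθ.isPGroup hS) (hθ.saturated hS hF) hab
  intro x hx y hy
  obtain ⟨z, hz, hc⟩ := h x hx
  obtain ⟨f, hf, rfl⟩ := isConjElt_iff.1 hc
  have hx' := Subgroup.mem_zpowers x
  obtain ⟨f', hf', e⟩ := hθ.push _ f hf
  obtain ⟨g', hg', e', -⟩ := isNormal_ext hDn hf'
  rw [sup_top_eq] at hg'
  obtain ⟨g, hg, e''⟩ := hθ.lift _ _ hg'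
  rw [hθ.pre_top] at hg e''
  have h1 : (f x)⁻¹ * g x ∈ V := by
    rw [← hker, ← fn_eq_iff hz.1 (hg.mem hx), ← e x hx', ← e' _ (mem_img_of_mem _ hx'), e'' x hx]
  refine hg.inj _ (mul_mem hx hy) _ (mul_mem hy hx) ?_
  rw [hg.map_mul hx hy, hg.map_mul hy hx, ← mul_inv_cancel_left (f x) (g x), mul_assoc,
    ← hVc _ h1 _ (hg.mem hy), ← mul_assoc, ← hz.2 _ (hg.mem hy), mul_assoc]

end Cfsg.Agent.Fus
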