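import Cfsg.Agent.Lib.Fus.PSolvGrp
import Cfsg.Agent.Lib.Fus.BGH
import Cfsg.Agent.Lib.Fus.PPrime
import Cfsg.Agent.Lib.Fus.SimpleGrp
import Cfsg.Agent.Lib.Asch.Constr
import Cfsg.Agent.Lib.Asch.PNormal
import Cfsg.Agent.Lib.Cover.Quot

/-!
Fusion systems of `p`-solvable groups.
-/

set_option autoImplicit false

namespace Cfsg.Agent.Fus

open Cfsg Cfsg.FusionSystem Cfsg.Agent.Fus2

universe u

variable {Ω : Type*} [Group Ω] {S T : Subgroup Ω} {F : FusionSystem S} {P Q : Subgroup Ω} {p : ℕ}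
  {G : Type*} [Group G] {ι : S →* G}

/-- The action of `N_G(P)` on `P` for a realized fusion system. -/
theorem exists_hom_autGroup [Finite S] (h : F.IsRealizedBy ι) (hP : P ≤ S) :
    ∃ ρ : Subgroup.normalizer (img P (fn ι) : Set G) →* F.autGroup P, Function.Surjective ρ ∧
      ∀ g, ∀ x ∈ P, fn ι (afn (ρ g : MulAut P) x) = g * fn ι x * (g : G)⁻¹ := by
  have hi := Asch.fn_inj h.1
  have hh := (homOn_fn ι).mono hP
  have tot : ∀ g : Subgroup.normalizer (img P (fn ι) : Set G), ∃ α : F.autGroup P,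
      ∀ x ∈ P, fn ι (afn (α : MulAut P) x) = g * fn ι x * (g : G)⁻¹ := by
    intro g
    have h1 : ∀ x ∈ P, (g : G) * fn ι x * (g : G)⁻¹ ∈ img P (fn ι) := fun x hx =>
      conj_mem_of_mem_normalizer g.2 (mem_img_of_mem _ hx)
    obtain ⟨f, hf, e⟩ := Asch.exists_M_of_conj h hP fun x hx => by
      rw [← img_fn]; exact img_mono _ hP (h1 x hx)
    obtain ⟨α, hα, e'⟩ := hf.exists_aut' fun x hx => by
      obtain ⟨y, hy, e'⟩ := hh.mem_img.1 (h1 x hx)
      rw [← e x hx] at e'
      exact hi _ (hP hy) _ (hf.mem hx) e' ▸ hy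
    exact ⟨⟨α, hα⟩, fun x hx => by rw [e' x hx, e x hx]⟩
  choose ρ hρ using tot
  refine ⟨MonoidHom.mk' ρ fun a b => Subtype.ext (aut_ext fun x hx => ?_), fun α => ?_, hρ⟩
  · refine hi _ (hP (afn_mem _ hx)) _ (hP (afn_mem _ hx)) ?_
    rw [hρ _ x hx, Subgroup.coe_mul, Subgroup.coe_mul, afn_mul, hρ _ _ (afn_mem _ hx), hρ _ x hx]
    group
  · obtain ⟨-, -, g, hg⟩ := (Asch.M_iff_of_realized h).1 (M_afn hP α.2)
    have := finite_of_le hP
    have := hh.finite_img
    have hg' : g ∈ Subgroup.normalizer (img P (fn ι) : Set G) :=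
      mem_normalizer_of_conj_mem fun y hy => by
        obtain ⟨x, hx, rfl⟩ := hh.mem_img.1 hy
        exact hg x hx ▸ mem_img_of_mem _ (afn_mem _ hx)
    refine ⟨⟨g, hg'⟩, Subtype.ext (aut_ext fun x hx => ?_)⟩
    refine hi _ (hP (afn_mem _ hx)) _ (hP (afn_mem _ hx)) ?_
    rw [hg x hx]
    exact hρ ⟨g, hg'⟩ x hx

variable [Fact p.Prime]

theorem isPSolvable_autGroup_of_realized [Finite S] [Finite G] (h : F.IsRealizedBy ι)
    (hG : IsPSolvable p G) (hP : P ≤ S) : IsPSolvable p (F.autGroup P) := by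
  obtain ⟨ρ, hρ, -⟩ := exists_hom_autGroup h hP
  exact isPSolvable_of_surjective hρ (isPSolvable_subgroup hG _)

theorem isPSolvable_of_model (hG : F.IsModel p G ι) (h : IsPSolvable p (F.autGroup F.core)) :
    IsPSolvable p G := by
  have := hG.1
  have := Asch.model_finite hG
  obtain ⟨ρ, -, hρ⟩ := exists_hom_autGroup hG.2.1 (core_le F)
  have h1 : IsPGroup p ρ.ker := by
    refine (Fit.isPGroup_pCore p G).of_injective
      (((Subgroup.subtype _).comp ρ.ker.subtype).codRestrict _ fun g => hG.2.2.2 fun y hy => ?_)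
      fun a b hab => Subtype.ext (Subtype.ext (by simpa using congrArg Subtype.val hab))
    rw [← Asch.model_img_core hG] at hy
    obtain ⟨x, hx, rfl⟩ := ((homOn_fn ι).mono (core_le F)).mem_img.1 hy
    have := hρ g x hx
    rw [MonoidHom.mem_ker.1 g.2, OneMemClass.coe_one, afn_one, eq_mul_inv_iff_mul_eq] at this
    exact this
  refine isPSolvable_of_surjective (f := Subgroup.subtype _) (fun g => ⟨⟨g, ?_⟩, rfl⟩)
    (isPSolvable_of_ker_sep ρ h (Or.inl (IsPGroup.iff_card.1 h1)))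
  rw [Asch.model_img_core hG, Subgroup.normalizer_eq_top]
  trivial

theorem isConstrained_of_realized [Finite G] (h : F.IsRealizedBy ι) (hG : IsPSolvable p G)
    (hs : ∃ T : Sylow p G, (T : Subgroup G) = ι.range) : F.IsConstrained p := by
  obtain ⟨b, hb⟩ := Asch.realized_isoM h
  obtain ⟨T, hT⟩ := hs
  rw [← hT] at hb
  refine hb.symm.isConstrained T.isPGroup' ?_
  let π := QuotientGroup.mk' (pPrimeCore p G)
  have hπ : Function.Surjective π := QuotientGroup.mk'_surjective _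
  obtain ⟨c, hc⟩ := (surjM_group π hπ T).exists_isoM (by
    rw [pre_bot_comp_subtype, QuotientGroup.ker_mk']
    exact (Fit.disjoint_pPrimeCore T.isPGroup').eq_bot)
  have hT' : IsSylowIn p ((T : Subgroup G).map π) ⊤ := by
    have := (isSylowIn_top T).map π
    rwa [← MonoidHom.range_eq_map, MonoidHom.range_eq_top.2 hπ] at this
  refine hc.symm.isConstrained hT'.isPGroup ⟨group_isSaturated' hT', pCore p _,
    group_isNormal (Asch.pCore_le_of_sylow hT'), ?_⟩
  refine isCentric_of_isNormal (group_isNormal (Asch.pCore_le_of_sylow hT')) fun x hx => ?_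
  exact Cover.centralizer_pCore_le (isPSolvable_of_surjective hπ hG)
    (Fit.pPrimeCore_quotient_pPrimeCore p G) hx.2

theorem isPSolvable_autGroup_of_primeToP [Finite S] {E : FusionSystem S}
    (h : E.HasPrimeToPIndexIn F p) (hP : P ≤ S) (hE : IsPSolvable p (E.autGroup P)) :
    IsPSolvable p (F.autGroup P) := by
  refine isPSolvable_of_pEltGen (isPSolvable_of_injective (f := ((Subgroup.subtype _).comp
    (pEltGen p (F.autGroup P)).subtype).codRestrict (E.autGroup P) fun α => ?_)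
    (fun a b hab => Subtype.ext (Subtype.ext (by simpa using congrArg Subtype.val hab))) hE)
  have : pEltGen p (F.autGroup P) ≤ (E.autGroup P).subgroupOf _ := by
    rw [pEltGen, Subgroup.closure_le]
    rintro β ⟨k, hk⟩
    exact primeToP_mem h hP β.2 (k := k) (congrArg Subtype.val hk)
  exact this α.2

theorem isPSolvable_autGroup_of_pPower [Finite S] (hS : IsPGroup p S) {E : FusionSystem T}
    (h : E.HasPPowerIndexIn F p) (hT : F.StronglyClosed T)
    (hE : ∀ P ≤ T, IsPSolvable p (E.autGroup P)) (hP : P ≤ S) : IsPSolvable p (F.autGroup P) := by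
  have := finite_of_le hP
  have := finite_of_le hT.1
  have h1 : IsPSolvable p (F.autGroup (P ⊓ T)) := by
    refine isPSolvable_of_pResidual (isPSolvable_of_injective (f := ((Subgroup.subtype _).comp
      (pResidual p (F.autGroup (P ⊓ T))).subtype).codRestrict (E.autGroup (P ⊓ T)) fun α => ?_)
      (fun a b hab => Subtype.ext (Subtype.ext (by simpa using congrArg Subtype.val hab))) (hE _ inf_le_right))
    exact h.2.2 _ inf_le_right ⟨α, α.2, rfl⟩
  have hm : ∀ α ∈ F.autGroup P, ∀ x ∈ P ⊓ T, afn α x ∈ P ⊓ T := fun α hα x hx =>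
    ⟨afn_mem α hx.1, afn_mem_of_sc hP hα hT hx.1 hx.2⟩
  obtain ⟨ρ, hρ⟩ := exists_hom_of_rel (F.autGroup P) (P := P ⊓ T) (a := fun x => x) (P' := P ⊓ T)
    (fun y hy => ⟨y, hy, rfl⟩) hm fun α hα =>
      (((M_afn hP hα).mono inf_le_left).exists_aut' (hm α hα)).imp fun _ h => h.2
  refine isPSolvable_of_ker_sep (ρ.codRestrict (F.autGroup (P ⊓ T)) fun α =>
    ((M_afn hP α.2).mono inf_le_left).mem_autGroup (hρ α)) h1 (Or.inl (IsPGroup.iff_card.1 ?_))
  rintro ⟨α, hα⟩
  have h2 : ρ α = 1 := congrArg Subtype.val hα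
  obtain ⟨k, hk⟩ := pow_eq_one_of_pfix (isPGroup_of_le hS hP) (U := T) (α := α)
    (PFix.of_fix fun x hx => Subtype.ext (by
      rw [← afn_coe, ← hρ α x ⟨x.2, hx⟩, h2, afn_one]))
    ((exists_pow_mem_trivMod_hyp hP α.2).imp fun k hk x hx => h.2.1 (hk x hx))
  exact ⟨k, Subtype.ext (Subtype.ext hk)⟩

theorem isNormal_core_of_invariant [Finite S] (hS : IsPGroup p S) (hF : F.IsSaturated p)
    {E : FusionSystem T} (h : E.IsInvariantIn F) : F.IsNormal E.core := by
  have hT := (IsInvariantIn_sc h).1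
  have := finite_of_le hT
  refine isNormal_of_isNormal_sub hS hF hT (IsInvariantIn_frattini h) (isNormal_core E)
    fun α hα x hx => ?_
  exact le_core ((IsInvariantIn_autInv h).isNormal_img (isNormal_core E) hα) (mem_img_of_mem _ hx)

theorem isConstrained_of_invariant_top [Finite S] (hS : IsPGroup p S) (hF : F.IsSaturated p)
    {E : FusionSystem S} (h : E.IsInvariantIn F) (hE : E.IsConstrained p) : F.IsConstrained p :=
  ⟨hF, _, isNormal_core_of_invariant hS hF h,
    isCentric_of_isNormal (isNormal_core_of_invariant hS hF h) (isConstrained_iff.1 hE).2⟩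

theorem isConstrained_of_hyp_le [Finite S] (hS : IsPGroup p S) (hF : F.IsSaturated p)
    (hT : F.hyperfocalSubgroup p ≤ T) (hQ : F.IsNormal Q) (hC : centralizerIn T Q ≤ Q) :
    F.IsConstrained p := by
  have hsc := sc_of_isNormal hQ
  have hN : F.IsNormal (Q ⊔ centralizerIn S Q) := by
    refine (isNormal_iff_sc_le_cr hS hF).2 ⟨sc_sup_centralizerIn hS hF hsc, fun P hc hr => ?_⟩
    have hQP := le_of_isNormal_of_centric_radical hS hQ hc hr
    have := finite_of_le hc.1
    refine sup_le hQP (le_of_conjAut_mem_autCore hS hc hr (centralizerIn_le Q)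
      (hc.1.trans (sc_le_normalizer (sc_centralizerIn_of_isNormal hQ))) fun g hg hN => ?_)
    let K : Subgroup (MulAut P) :=
      { carrier := {α | α ∈ F.autGroup P ∧ ∀ x ∈ Q, afn α x = x}
        one_mem' := ⟨Subgroup.one_mem _, fun x _ => afn_one x⟩
        mul_mem' := fun ha hb => ⟨Subgroup.mul_mem _ ha.1 hb.1, fun x hx => by
          rw [afn_mul, hb.2 x hx, ha.2 x hx]⟩
        inv_mem' := fun {a} ha => ⟨Subgroup.inv_mem _ ha.1, fun x hx => by
          conv_lhs => rw [← ha.2 x hx]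
          rw [afn_inv_afn]⟩ }
    refine le_autCore (B := K) (fun α hα => hα.1) ?_ ?_
      ⟨conjAut_mem_autGroup hc.1 hg.1 hN, fun x hx => ?_⟩
    · rintro ⟨α, hα, hfix⟩
      obtain ⟨k, hk⟩ := exists_pow_mem_trivMod_hyp (p := p) hc.1 hα
      have hfix' : ∀ x ∈ Q, afn (α ^ p ^ k) x = x := (K.pow_mem ⟨hα, hfix⟩ _).2
      obtain ⟨m, hm⟩ := exists_pow_eq_one_of_fix (isPGroup_of_le hS hc.1) (Q := Q)
        (α := α ^ p ^ k) (fun x _ hx => hfix' x hx) fun x hx => hC ⟨hT (hk x hx), fun q hq => by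
          have h1 := (homOn_afn (α ^ p ^ k)).map_conj hx (hQP hq)
          rw [hfix' _ (sc_conj_mem hsc (hc.1 hx) hq), hfix' q hq] at h1
          calc q * (x⁻¹ * afn (α ^ p ^ k) x) = x⁻¹ * (x * q * x⁻¹) * afn (α ^ p ^ k) x := by group
            _ = x⁻¹ * afn (α ^ p ^ k) x * q := by rw [h1]; group⟩
      exact ⟨k + m, Subtype.ext (by rw [pow_add, pow_mul]; exact hm)⟩
    · refine Subgroup.le_normalizer_iff.2 fun γ hγ β hβ => ⟨Subgroup.mul_mem _
        (Subgroup.mul_mem _ hγ hβ.1) (Subgroup.inv_mem _ hγ), fun x hx => ?_⟩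
      rw [afn_mul, afn_mul, hβ.2 _ (afn_mem_of_sc hc.1 (Subgroup.inv_mem _ hγ) hsc (hQP hx) hx),
        afn_afn_inv]
    · rw [afn_conjAut hN (hQP hx), ← hg.2 x hx, mul_inv_cancel_right]
  exact ⟨hF, _, hN, isCentric_of_isNormal hN
    ((centralizerIn_anti le_sup_left).trans le_sup_right)⟩

/-- In the fusion system of a `p`-solvable group, the hyperfocal subgroup of the `p'`-residual is
proper. -/
theorem hyp_ne_of_realized [Finite S] [Finite G] (h : F.IsRealizedBy ι)
    (hG : IsPSolvable p G) (hs : ∃ T : Sylow p G, (T : Subgroup G) = ι.range) {E : FusionSystem S}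
    (hE : F.IsPPrimeResidual p E) (h0 : S ≠ ⊥) : E.hyperfocalSubgroup p ≠ S := by
  intro he
  have hsyl := Asch.isSylowIn_range hs
  have hle : ι.range ≤ pEltGen p G := fun x hx => by
    obtain ⟨k, hk⟩ := hsyl.isPGroup ⟨x, hx⟩
    exact mem_pEltGen (k := k) (congrArg Subtype.val hk)
  have hsyl' := hsyl.of_le hle le_top
  have hemb : Asch.Emb S ι.range (fn ι) :=
    ⟨homOn_fn ι, Asch.fn_inj h.1, fun x hx => img_fn ι ▸ mem_img_of_mem _ hx⟩
  have hsub : E.IsSubsystemOf (Asch.pull (fusionSystemOfSubgroup _ _ hle) hemb) := by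
    refine hE.2.2 _ (Asch.pull_saturated hsyl.isPGroup (sub_isSaturated hsyl') (img_fn ι))
      (hasPrimeToPIndexIn_iff.2 ⟨isSubsystemOf_iff.2 fun P f hf => ?_, fun P hP α hα k hk => ?_⟩)
    · obtain ⟨h1, h2, f', h3, e⟩ := Asch.M_pull_iff.1 hf
      obtain ⟨-, -, g, -, hg⟩ := M_sub_iff.1 h3
      exact (Asch.M_iff_of_realized h).2 ⟨h1, h2, g, fun x hx => by
        rw [← e x hx, hg _ (mem_img_of_mem _ hx)]⟩
    · obtain ⟨ρ, hρ, e⟩ := exists_hom_autGroup h hP
      obtain ⟨g, hg, a, ha⟩ := exists_pElement_lift ρ (c := ⟨α, hα⟩) (hρ _) (k := k)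
        (Subtype.ext hk)
      have hi : img P (fn ι) ≤ ι.range := img_le_iff.2 fun x hx => hemb.mem x (hP hx)
      refine (Fus2.mem_autGroup_iff hP).2 (Asch.M_pull_of hP (fun x hx => hP (afn_mem α hx))
        (f' := fun y => g * y * (g : G)⁻¹) (M_sub_iff.2 ⟨hi,
          fun y hy => hi (conj_mem_of_mem_normalizer g.2 hy), g,
          mem_pEltGen (k := a) (congrArg Subtype.val ha), fun _ _ => rfl⟩) fun x hx => ?_)
      rw [← e g x hx, hg]
  have h1 : ι.range ≤ Tr.pResIn p (pEltGen p G) := by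
    rintro _ ⟨⟨x, hx⟩, rfl⟩
    rw [← fn_apply ι hx]
    refine hyp_sub_le hle (hyp_push (F := E) (fun P f hf => ?_) (he.symm ▸ hx))
    exact (Asch.M_pull_iff.1 (M_of_le hsub hf)).2.2
  have h2 : pResidual p (pEltGen p G) = ⊤ := by
    rw [← Tr.pResIn_eq_self_iff, ← (sylowIn_tr hsyl').pResIn_sup, sup_eq_left.2 h1,
      Tr.pResIn_pResIn]
  have h3 : pEltGen p (pEltGen p G) = ⊤ := by
    rw [eq_top_iff]
    rintro ⟨x, hx⟩ -
    induction hx using Subgroup.closure_induction with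
    | mem y hy => exact mem_pEltGen (k := hy.choose) (Subtype.ext hy.choose_spec)
    | one => exact Subgroup.one_mem _
    | mul y z _ _ hy hz => exact Subgroup.mul_mem _ hy hz
    | inv y _ hy => exact Subgroup.inv_mem _ hy
  have := subsingleton_of_isPSolvable (isPSolvable_subgroup hG _) h3 h2
  refine h0 (eq_bot_iff.2 fun x hx => ?_)
  have h4 : (⟨ι ⟨x, hx⟩, hle ⟨_, rfl⟩⟩ : pEltGen p G) = 1 := Subsingleton.elim _ _
  have h5 : (⟨x, hx⟩ : S) = 1 := h.1 ((congrArg Subtype.val h4).trans (map_one ι).symm)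
  exact congrArg Subtype.val h5

/-- Constrained with `p`-solvable automizers. -/
def SolvAut (F : FusionSystem S) (p : ℕ) : Prop :=
  F.IsConstrained p ∧ ∀ P ≤ S, IsPSolvable p (F.autGroup P)

theorem SolvAut.sub [Finite S] (hS : IsPGroup p S) (h : SolvAut F p) {E : FusionSystem T}
    (hE : E.IsSaturated p) (hsub : E.IsSubsystemOf F) (hT : F.StronglyClosed T) : SolvAut E p :=
  ⟨isConstrained_sub hS h.1 hE hsub hT, fun P hP => by
    have := finite_of_le (hP.trans hT.1)
    have := finite_mulAut P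
    exact isPSolvable_of_le (h.2 P (hP.trans hT.1)) (autGroup_mono hsub P)⟩

theorem solvAut_of_terminating {p : ℕ} (h : F.HasTerminatingResidualSeries p) :
    ∀ [Fact p.Prime] [Finite S], IsPGroup p S → F.IsSaturated p → SolvAut F p := by
  induction h with
  | trivial F p h0 =>
    intro _ _ hS hF
    subst h0
    refine ⟨⟨hF, ⊥, isNormal_bot F, isCentric_top⟩, fun P hP => ?_⟩
    obtain rfl : P = ⊥ := le_bot_iff.1 hP
    have : Subsingleton (MulAut (⊥ : Subgroup Ω)) :=
      ⟨fun a b => MulEquiv.ext fun x => Subsingleton.elim _ _⟩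
    exact isPSolvable_of_isPGroup fun g => ⟨0, Subsingleton.elim _ _⟩
  | @step S F E p D hE hD _ ih =>
    intro _ _ hS hF
    have := finite_of_le (hyp_le E p)
    obtain ⟨h1, h2⟩ := ih (isPGroup_of_le hS (hyp_le E p)) hD.1
    have hDE := (Asch.isNormalIn_iff.2 (Asch.nor_pResidual hS hE.1 hD)).1.2.2
    have hEF := (isNormalIn_pPrimeResidual hS hF hE).1.2.2
    exact ⟨isConstrained_of_invariant_top hS hF hEF (isConstrained_of_hyp_le hS hE.1 le_rfl
      (isNormal_core_of_invariant hS hE.1 hDE) (isConstrained_iff.1 h1).2), fun P hP =>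
      isPSolvable_autGroup_of_primeToP hE.2.1 hP
        (isPSolvable_autGroup_of_pPower hS hD.2 (sc_hyp hS hE.1) h2 hP)⟩

theorem terminating_of_solvAut {Ω : Type u} [Group Ω] (n : ℕ) :
    ∀ {S : Subgroup Ω} [Finite S] {F : FusionSystem S}, Nat.card S = n → IsPGroup p S →
      SolvAut F p → F.HasTerminatingResidualSeries p := by
  induction n using Nat.strong_induction_on with
  | _ n ih =>
    intro S _ F hn hS h
    by_cases h0 : S = ⊥
    · exact .trivial F p h0
    obtain ⟨E, hE⟩ := exists_pPrimeResidual hS h.1.1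
    obtain ⟨D, hD⟩ := Asch.exists_pResidual hS hE.1
    obtain ⟨G, _, ι, hG⟩ := Asch.exists_model_of_constrained hS h.1
    have := hG.1
    have hne := hyp_ne_of_realized hG.2.1 (isPSolvable_of_model hG (h.2 _ (core_le F)))
      hG.2.2.1 hE h0
    have := finite_of_le (hyp_le E p)
    refine .step F E p D hE hD (ih _ (hn ▸ card_lt_of_lt' le_rfl
      (lt_of_le_of_ne (hyp_le E p) hne)) rfl (isPGroup_of_le hS (hyp_le E p)) ?_)
    exact (h.sub hS hE.1 hE.2.1.1 (sc_top F)).sub hS hD.1 hD.2.1 (sc_hyp hS hE.1)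

end Cfsg.Agent.Fus
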