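import Cfsg.Agent.Lib.Fus2.Solv
import Cfsg.Agent.Lib.Fit.Frattini
import Cfsg.Agent.Lib.Transfer.Residual

/-!
Closure properties of `p`-solvable finite groups.
-/

set_option autoImplicit false

namespace Cfsg.Agent.Fus

open Cfsg Relation

universe u

variable {G G' : Type*} [Group G] [Group G'] {p : ℕ}

theorem mem_of_coprime_pow' {H : Subgroup G} {z : G} {a b : ℕ}
    (h : a.Coprime b) (ha : z ^ a ∈ H) (hb : z ^ b ∈ H) : z ∈ H := by
  obtain ⟨u, v, e⟩ := Nat.isCoprime_iff_coprime.2 h
  have := mul_mem (zpow_mem ha u) (zpow_mem hb v)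
  rwa [← zpow_natCast, ← zpow_natCast, ← zpow_mul, ← zpow_mul, ← zpow_add, mul_comm _ u,
    mul_comm _ v, e, zpow_one] at this

/-- `n` is a power of `p` or prime to `p`. -/
def PSep (p n : ℕ) : Prop := (∃ m : ℕ, n = p ^ m) ∨ n.Coprime p

/-- One step of a `p`-series. -/
def PStep (p : ℕ) (A B : Subgroup G) : Prop :=
  B.Normal ∧ A ≤ B ∧ ∃ n, PSep p n ∧ ∀ b ∈ B, b ^ n ∈ A

theorem pSep_card_of_exponent [Finite G] [hp : Fact p.Prime] {n : ℕ} (hn : PSep p n)
    (h : ∀ g : G, g ^ n = 1) : PSep p (Nat.card G) := by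
  rcases hn with ⟨m, rfl⟩ | hn
  · exact Or.inl (IsPGroup.iff_card.1 fun g => ⟨m, h g⟩)
  · refine Or.inr ((Nat.Prime.coprime_iff_not_dvd hp.out).2 fun hd => ?_).symm
    obtain ⟨x, hx⟩ := exists_prime_orderOf_dvd_card' p hd
    exact (Nat.Prime.coprime_iff_not_dvd hp.out).1 hn.symm
      (hx ▸ orderOf_dvd_of_pow_eq_one (h x))

theorem pStep_normal {A B : Subgroup G} (h : ReflTransGen (PStep p) A B) (hA : A.Normal) :
    B.Normal := by
  induction h with
  | refl => exact hA
  | tail _ hr _ => exact hr.1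

theorem isPSolvable_iff [Finite G] [Fact p.Prime] :
    IsPSolvable p G ↔ ReflTransGen (PStep p) (⊥ : Subgroup G) ⊤ := by
  rw [Fus2.reflTransGen_iff_fin]
  constructor
  · rintro ⟨n, H, h0, hl, hm, hn, hs⟩
    refine ⟨n, H, h0, hl, fun i => ⟨hn _, hm Fin.castSucc_lt_succ.le, _, hs i, fun b hb => ?_⟩⟩
    have := hn i.castSucc
    exact Subgroup.pow_relIndex_mem _ hb
  · rintro ⟨n, H, h0, hl, hs⟩
    have hn : ∀ i, (H i).Normal := fun i => by
      induction i using Fin.cases with
      | zero => exact h0 ▸ inferInstance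
      | succ i => exact (hs i).1
    refine ⟨n, H, h0, hl, Fin.monotone_iff_le_succ.2 fun i => (hs i).2.1, hn, fun i => ?_⟩
    obtain ⟨-, -, m, hm, h⟩ := hs i
    have := hn i.castSucc
    rw [Fit.relIndex_eq_card_map_mk']
    refine pSep_card_of_exponent hm ?_
    rintro ⟨_, b, hb, rfl⟩
    exact Subtype.ext ((QuotientGroup.eq_one_iff _).2 (h b hb))

theorem pStep_comap (f : G →* G') {A B : Subgroup G'} (h : ReflTransGen (PStep p) A B) :
    ReflTransGen (PStep p) (A.comap f) (B.comap f) := by
  induction h with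
  | refl => exact .refl
  | tail _ hr ih =>
    obtain ⟨h1, h2, n, h3, h4⟩ := hr
    exact ih.tail ⟨h1.comap f, Subgroup.comap_mono h2, n, h3, fun b hb => by
      rw [Subgroup.mem_comap, map_pow]; exact h4 _ hb⟩

theorem pStep_map {f : G →* G'} (hf : Function.Surjective f) {A B : Subgroup G}
    (h : ReflTransGen (PStep p) A B) : ReflTransGen (PStep p) (A.map f) (B.map f) := by
  induction h with
  | refl => exact .refl
  | tail _ hr ih =>
    obtain ⟨h1, h2, n, h3, h4⟩ := hr
    refine ih.tail ⟨h1.map f hf, Subgroup.map_mono h2, n, h3, ?_⟩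
    rintro _ ⟨b, hb, rfl⟩
    exact ⟨b ^ n, h4 b hb, map_pow f b n⟩

variable [hp : Fact p.Prime]

theorem isPSolvable_of_surjective [Finite G] {f : G →* G'} (hf : Function.Surjective f)
    (h : IsPSolvable p G) : IsPSolvable p G' := by
  have := Finite.of_surjective f hf
  have := pStep_map hf (isPSolvable_iff.1 h)
  rw [Subgroup.map_bot, ← MonoidHom.range_eq_map, MonoidHom.range_eq_top.2 hf] at this
  exact isPSolvable_iff.2 this

theorem isPSolvable_of_ker_sep [Finite G] [Finite G'] (f : G →* G') (h : IsPSolvable p G')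
    (hk : PSep p (Nat.card f.ker)) : IsPSolvable p G := by
  have := pStep_comap f (isPSolvable_iff.1 h)
  rw [Subgroup.comap_top, MonoidHom.comap_bot] at this
  refine isPSolvable_iff.2 (.head ⟨inferInstance, bot_le, _, hk, fun b hb => ?_⟩ this)
  exact congrArg Subtype.val (pow_card_eq_one' (x := (⟨b, hb⟩ : f.ker)))

theorem isPSolvable_of_injective [Finite G'] {f : G →* G'} (hf : Function.Injective f)
    (h : IsPSolvable p G') : IsPSolvable p G := by
  have := Finite.of_injective f hf
  exact isPSolvable_of_ker_sep f h (by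
    rw [(MonoidHom.ker_eq_bot_iff f).2 hf, Subgroup.card_bot]; exact Or.inl ⟨0, rfl⟩)

theorem isPSolvable_subgroup [Finite G] (h : IsPSolvable p G) (H : Subgroup G) : IsPSolvable p H :=
  isPSolvable_of_injective H.subtype_injective h

theorem isPSolvable_of_le [Finite G] {H K : Subgroup G} (h : IsPSolvable p K) (hHK : H ≤ K) :
    IsPSolvable p H :=
  isPSolvable_of_injective (Subgroup.inclusion_injective hHK) h

theorem isPSolvable_of_sep [Finite G] (h : PSep p (Nat.card G)) : IsPSolvable p G :=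
  isPSolvable_iff.2 (.single ⟨inferInstance, bot_le, _, h, fun _ _ => pow_card_eq_one'⟩)

theorem isPSolvable_of_isPGroup [Finite G] (h : IsPGroup p G) : IsPSolvable p G :=
  isPSolvable_of_sep (Or.inl (IsPGroup.iff_card.1 h))

theorem core_ne_bot_of_isPSolvable [Finite G] [Nontrivial G] (h : IsPSolvable p G) :
    pCore p G ≠ ⊥ ∨ pPrimeCore p G ≠ ⊥ := by
  by_contra hc
  push Not at hc
  have key : ∀ B : Subgroup G, ReflTransGen (PStep p) ⊥ B → B = ⊥ := by
    intro B hB
    induction hB with
    | refl => rfl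
    | @tail A B _ hr ih =>
      obtain ⟨h1, -, n, h3, h4⟩ := hr
      subst ih
      rcases pSep_card_of_exponent (G := B) h3 (fun b => Subtype.ext
        (Subgroup.mem_bot.1 (h4 b.1 b.2))) with h5 | h5
      · exact Fit.eq_bot_of_pCore_eq_bot hc.1 h1 (IsPGroup.iff_card.2 h5)
      · exact Fit.eq_bot_of_pPrimeCore_eq_bot hc.2 h1 h5
  exact top_ne_bot (key ⊤ (isPSolvable_iff.1 h))

theorem isPSolvable_of_ker_aux [Finite G'] (h : IsPSolvable p G') (n : ℕ) :
    ∀ (G : Type u) [Group G] [Finite G] (f : G →* G'), Nat.card G = n → IsPSolvable p f.ker →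
      IsPSolvable p G := by
  induction n using Nat.strong_induction_on with
  | _ n ih =>
    intro G _ _ f hn hk
    by_cases h0 : f.ker = ⊥
    · exact isPSolvable_of_injective ((MonoidHom.ker_eq_bot_iff f).1 h0) h
    have := (Subgroup.nontrivial_iff_ne_bot _).2 h0
    obtain ⟨K, hKc, hK0, hK⟩ : ∃ K : Subgroup f.ker, K.Characteristic ∧ K ≠ ⊥ ∧
        PSep p (Nat.card K) := by
      rcases core_ne_bot_of_isPSolvable hk with h1 | h1
      · exact ⟨_, inferInstance, h1, Or.inl (IsPGroup.iff_card.1 (Fit.isPGroup_pCore p _))⟩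
      · exact ⟨_, inferInstance, h1, Or.inr (Fit.coprime_card_pPrimeCore p _)⟩
    have := Fit.normal_map_subtype_of_char f.ker K
    have hle : K.map f.ker.subtype ≤ f.ker := Subgroup.map_subtype_le K
    have hne : K.map f.ker.subtype ≠ ⊥ := fun e =>
      hK0 ((Subgroup.map_eq_bot_iff_of_injective _ f.ker.subtype_injective).1 e)
    refine isPSolvable_of_ker_sep (QuotientGroup.mk' (K.map f.ker.subtype)) ?_
      (by rwa [QuotientGroup.ker_mk', Fit.card_map_subtype])
    refine ih _ (hn ▸ Fit.card_quotient_lt hne) _ (QuotientGroup.lift _ f hle) rfl ?_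
    refine isPSolvable_of_surjective (f := ((QuotientGroup.mk' _).comp f.ker.subtype).codRestrict
      (QuotientGroup.lift _ f hle).ker fun x => x.2) ?_ hk
    rintro ⟨y, hy⟩
    induction y using QuotientGroup.induction_on with
    | H x => exact ⟨⟨x, hy⟩, rfl⟩

theorem isPSolvable_of_ker [Finite G] [Finite G'] (f : G →* G') (h : IsPSolvable p G')
    (hk : IsPSolvable p f.ker) : IsPSolvable p G :=
  isPSolvable_of_ker_aux h _ G f rfl hk

theorem isPSolvable_of_normal [Finite G] {N : Subgroup G} [N.Normal] (hN : IsPSolvable p N)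
    {n : ℕ} (hn : PSep p n) (h : ∀ g : G, g ^ n ∈ N) : IsPSolvable p G := by
  refine isPSolvable_of_ker (QuotientGroup.mk' N) (isPSolvable_of_sep (pSep_card_of_exponent hn
    fun g => ?_)) (by rwa [QuotientGroup.ker_mk'])
  induction g using QuotientGroup.induction_on with
  | H x => exact (QuotientGroup.eq_one_iff _).2 (h x)

/-- The subgroup generated by the `p`-elements. -/
def pEltGen (p : ℕ) (G : Type*) [Group G] : Subgroup G :=
  Subgroup.closure {g | ∃ k : ℕ, g ^ p ^ k = 1}

omit hp in
theorem mem_pEltGen {g : G} {k : ℕ} (h : g ^ p ^ k = 1) : g ∈ pEltGen p G :=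
  Subgroup.subset_closure ⟨k, h⟩

instance pEltGen_normal : (pEltGen p G).Normal :=
  ⟨fun x hx g => by
    have : (pEltGen p G).map (MulAut.conj g).toMonoidHom ≤ pEltGen p G := by
      rw [pEltGen, MonoidHom.map_closure, Subgroup.closure_le]
      rintro _ ⟨y, ⟨k, hk⟩, rfl⟩
      exact mem_pEltGen (k := k) (by rw [← map_pow, hk, map_one])
    exact this ⟨x, hx, rfl⟩⟩

theorem isPSolvable_of_pEltGen [Finite G] (h : IsPSolvable p (pEltGen p G)) : IsPSolvable p G := by
  refine isPSolvable_of_normal h (n := Nat.card G / p ^ (Nat.card G).factorization p)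
    (Or.inr (Nat.coprime_ordCompl hp.out Nat.card_pos.ne').symm) fun g => ?_
  refine mem_pEltGen (k := (Nat.card G).factorization p) ?_
  rw [← pow_mul, Nat.div_mul_cancel (Nat.ordProj_dvd _ _), pow_card_eq_one']

theorem isPSolvable_of_pResidual [Finite G] (h : IsPSolvable p (pResidual p G)) :
    IsPSolvable p G := by
  have := Tr.pResidual_normal p G
  obtain ⟨k, hk⟩ := Tr.index_pResidual p G
  exact isPSolvable_of_normal h (Or.inl ⟨k, hk⟩) fun g => Subgroup.pow_index_mem _ g

/-- A nontrivial `p`-solvable group has a proper `p`- or `p'`-residual. -/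
theorem subsingleton_of_isPSolvable [Finite G] (h : IsPSolvable p G) (h1 : pEltGen p G = ⊤)
    (h2 : pResidual p G = ⊤) : Subsingleton G := by
  have key : ∀ A : Subgroup G, ReflTransGen (PStep p) A ⊤ → A = ⊤ := by
    intro A hA
    induction hA using ReflTransGen.head_induction_on with
    | refl => rfl
    | head hr _ ih =>
      subst ih
      obtain ⟨-, -, n, ⟨m, rfl⟩ | hn, h4⟩ := hr
      · rw [eq_top_iff, ← h2, Tr.pResidual_le_iff]
        intro x hx
        exact mem_of_coprime_pow' (hx.pow_right m) (by rw [pow_orderOf_eq_one]; exact one_mem _)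
          (h4 x trivial)
      · rw [eq_top_iff, ← h1, pEltGen, Subgroup.closure_le]
        rintro x ⟨k, hk⟩
        exact mem_of_coprime_pow' (hn.pow_right k) (h4 x trivial) (hk ▸ one_mem _)
  have := key ⊥ (isPSolvable_iff.1 h)
  exact Subgroup.subsingleton_iff.1 (subsingleton_of_bot_eq_top this)

end Cfsg.Agent.Fus
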