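import Cfsg.Agent.Lib.Lie.Flag

/-!
A criterion for the simplicity of the `2`-fusion system of `PSp₄(q)`, `q` odd.
-/

set_option autoImplicit false
set_option linter.unusedSectionVars false

namespace Cfsg.Agent.Fus

open Subgroup

variable {Γ G : Type*} [Group Γ] [Group G]

/-- Equality up to the central involution `z`. -/
def Pm (z x y : G) : Prop := x = y ∨ x = y * z

theorem Pm.trans {z x y w : G} (hz : z * z = 1) (h : Pm z x y) (h' : Pm z y w) : Pm z x w := by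
  rcases h with rfl | rfl <;> rcases h' with rfl | rfl <;> simp [Pm, mul_assoc, hz]

theorem Pm.conj {z x y : G} (hz : ∀ g, g * z = z * g) (h : Pm z x y) (g : G) :
    Pm z (g * x * g⁻¹) (g * y * g⁻¹) := by
  rcases h with rfl | rfl
  · exact .inl rfl
  · exact .inr (by rw [mul_assoc (g * y), hz g⁻¹]; group)

theorem Pm.conj_mul {z c c' r : G} (hz : z * z = 1) (hz' : ∀ g, g * z = z * g)
    (h : Pm z (c * r * c⁻¹) r) (h' : Pm z (c' * r * c'⁻¹) r) :
    Pm z (c * c' * r * (c * c')⁻¹) r := by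
  simpa [mul_assoc] using (h'.conj hz' c).trans hz h

section

variable {z i j : Γ} (h : QPair z i j) (hz : ∀ g, g * z = z * g)
  (hc : ∀ t, t * i = i * t → t * j = j * t → t = 1 ∨ t = z)
include h hz

theorem QPair.conj_j : i * j * i⁻¹ = j * z := by
  rw [mul_inv_eq_iff_eq_mul, mul_assoc, ← hz, ← mul_assoc, h.ji, mul_assoc _ z, h.zz, mul_one]

include hc in
theorem QPair.mem_of_pm {Q : Subgroup Γ} (hi : i ∈ Q) (hj : j ∈ Q) {y : Γ}
    (h1 : Pm z (y * i * y⁻¹) i) (h2 : Pm z (y * j * y⁻¹) j) : y ∈ Q := by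
  have key : ∀ y, y * i * y⁻¹ = i → Pm z (y * j * y⁻¹) j → y ∈ Q := fun y h1 h2 => by
    have key : ∀ y, y * i * y⁻¹ = i → y * j * y⁻¹ = j → y ∈ Q := fun y h1 h2 => by
      rcases hc y (mul_inv_eq_iff_eq_mul.1 h1) (mul_inv_eq_iff_eq_mul.1 h2) with rfl | rfl
      exacts [one_mem Q, h.ii ▸ mul_mem hi hi]
    rcases h2 with h2 | h2
    · exact key y h1 h2
    refine (mul_mem_cancel_left hi).1 (key _ ?_ ?_)
    · rw [show i * y * i * (i * y)⁻¹ = i * (y * i * y⁻¹) * i⁻¹ by group, h1, mul_inv_cancel_right]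
    · rw [show i * y * j * (i * y)⁻¹ = i * (y * j * y⁻¹) * i⁻¹ by group, h2, mul_assoc, mul_assoc,
        ← hz, ← mul_assoc, ← mul_assoc, h.conj_j hz, mul_assoc, h.zz, mul_one]
  rcases h1 with h1 | h1
  · exact key y h1 h2
  refine (mul_mem_cancel_left hj).1 (key _ ?_ (Pm.conj_mul h.zz hz (.inl (by simp)) h2))
  rw [show j * y * i * (j * y)⁻¹ = j * (y * i * y⁻¹) * j⁻¹ by group, h1, mul_assoc, mul_assoc,
    ← hz, ← mul_assoc, ← mul_assoc, h.conj_i, mul_assoc, h.zz, mul_one]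

omit hz in
theorem QPair.pm_of_mem_zpowers {c : Γ} (hc : c ∈ zpowers i) : Pm z c 1 ∨ Pm z c i := by
  obtain ⟨n, rfl⟩ := hc
  obtain ⟨m, rfl | rfl⟩ := Int.even_or_odd' n
  · refine .inl (((mem_zpowers_of_mul_self h.zz).1 ⟨m, ?_⟩).imp id fun e => by rw [e, one_mul])
    simp [zpow_mul, sq, h.ii]
  · refine .inr ?_
    rcases (mem_zpowers_of_mul_self h.zz).1 (show i ^ (2 * m) ∈ zpowers z from
      ⟨m, by simp [zpow_mul, sq, h.ii]⟩) with e | e
    · exact .inl (by simp [zpow_add, e])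
    · exact .inr (by simp [zpow_add, e, h.iz])

omit hz in
theorem QPair.pm_cases {Q : Subgroup Γ} (hj : j ∈ Q) (h2 : (zpowers i).relIndex Q = 2) {c : Γ}
    (hc : c ∈ Q) : (Pm z c 1 ∨ Pm z c i) ∨ Pm z c j ∨ Pm z c (i * j) := by
  by_cases e : c ∈ zpowers i
  · exact .inl (h.pm_of_mem_zpowers e)
  have : c * j⁻¹ ∈ zpowers i := (mul_mem_iff_of_index_two h2 (a := ⟨c, hc⟩)
    (b := ⟨j⁻¹, inv_mem hj⟩)).2 (by simp [mem_subgroupOf, e, h.j_not_mem])
  rcases h.pm_of_mem_zpowers this with (e | e) | e | e <;> rw [mul_inv_eq_iff_eq_mul] at e <;>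
    simp [e, Pm, h.jz, mul_assoc]

include hc in
/-- The normalizer of a Sylow subgroup of order `8`. -/
theorem QPair.normalizer_le [Finite Γ] {Q X : Subgroup Γ} (hQ : IsSylowIn 2 Q ⊤) (hi : i ∈ Q)
    (hj : j ∈ Q) (h2 : (zpowers i).relIndex Q = 2) {ω : Γ} (hω : ω ∈ normalizer (Q : Set Γ))
    (h3 : Pm z (ω * j * ω⁻¹) (i * j)) (h4 : Pm z (ω * (i * j) * ω⁻¹) i) (hX : Q ≤ X)
    (hωX : ω ∈ X) : normalizer (Q : Set Γ) ≤ X := by
  have sq : ∀ a c : Γ, c * c = z → ¬ Pm z (a * c * a⁻¹) 1 := fun a c hc e => by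
    have : a * c * a⁻¹ * (a * c * a⁻¹) = 1 := by rcases e with e | e <;> simp [e, h.zz]
    rw [conj_mul, hc, hz, mul_inv_cancel_right] at this
    exact h.ne this
  have key : ∀ y ∈ normalizer (Q : Set Γ), Pm z (y * i * y⁻¹) i → y ∈ Q := fun y hy h1 => by
    have key : ∀ y ∈ normalizer (Q : Set Γ), y * i * y⁻¹ = i → y * j * y⁻¹ ≠ i * j :=
      fun y hy h1 h5 => by
        obtain ⟨w, hw, ⟨k, hk⟩, h6, h7⟩ := h.exists_two_element (mul_inv_eq_iff_eq_mul.1 h1) h5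
        have h8 := hQ.le_of_le_normalizer le_top (isPGroup_zpowers_of_pow hk)
          ((zpowers_le.2 hw).trans (zpowers_le.2 hy)) (mem_zpowers w)
        have h9 : ∀ x, x * z * j * (x * z)⁻¹ = x * j * x⁻¹ := fun x => by
          rw [mul_assoc x, ← hz]; group
        have h10 : ∀ x, x * z * i = i * (x * z) → x * i = i * x := fun x e => by
          rwa [mul_assoc, ← hz, ← mul_assoc, ← mul_assoc, mul_left_inj] at e
        have h11 : i ≠ 1 := fun e => h.i_not_mem (e ▸ one_mem _)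
        have h12 : j * z ≠ i * j := fun e => h.i_not_mem (by
          rw [hz, mul_left_inj] at e
          exact e ▸ mem_zpowers z)
        have h13 : i * j * i ≠ i * (i * j) := fun e => h.ne_comm (by
          rw [mul_assoc, mul_right_inj] at e
          exact e.symm)
        rcases h.pm_cases hj h2 h8 with ((rfl | rfl) | rfl | rfl) | (rfl | rfl) | rfl | rfl
        · exact h11 (by simpa using h7.symm)
        · exact h11 (by rw [h9] at h7; simpa using h7.symm)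
        · exact h12 (h.conj_j hz ▸ h7)
        · exact h12 (by rwa [h9, h.conj_j hz] at h7)
        · exact h.ne_comm h6.symm
        · exact h.ne_comm (h10 _ h6).symm
        · exact h13 h6
        · exact h13 (h10 _ h6)
    have key' : ∀ y ∈ normalizer (Q : Set Γ), y * i * y⁻¹ = i → y ∈ Q := fun y hy h1 => by
      rcases h.pm_cases hj h2 ((hy j).1 hj) with (e | e) | e | e | e
      · exact absurd e (sq y j h.jj)
      · refine absurd ?_ h.ne_comm
        rw [← conj_injective (x := y) |>.eq_iff]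
        show y * (i * j) * y⁻¹ = y * (j * i) * y⁻¹
        rw [← conj_mul, ← conj_mul, h1]
        rcases e with e | e <;> rw [e]
        rw [mul_assoc, hz]
      · exact h.mem_of_pm hz hc hi hj (.inl h1) e
      · exact absurd e (key y hy h1)
      · refine absurd ?_ (key (i * y) (mul_mem (le_normalizer hi) hy) (by
          rw [show i * y * i * (i * y)⁻¹ = i * (y * i * y⁻¹) * i⁻¹ by group, h1,
            mul_inv_cancel_right]))
        rw [show i * y * j * (i * y)⁻¹ = i * (y * j * y⁻¹) * i⁻¹ by group, e,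
          show i * (i * j * z) * i⁻¹ = i * (i * j * (z * i⁻¹)) by group, ← hz, ← mul_assoc _ i⁻¹,
          h.conj_j hz, mul_assoc j, h.zz, mul_one]
    rcases h1 with h1 | h1
    · exact key' y hy h1
    refine (mul_mem_cancel_left hj).1 (key' _ (mul_mem (le_normalizer hj) hy) ?_)
    rw [show j * y * i * (j * y)⁻¹ = j * (y * i * y⁻¹) * j⁻¹ by group, h1, mul_assoc, mul_assoc,
      ← hz, ← mul_assoc, ← mul_assoc, h.conj_i, mul_assoc, h.zz, mul_one]
  have h5 : ∀ a ∈ normalizer (Q : Set Γ), Pm z (a * i * a⁻¹) (i * j) → a ∈ X := fun a ha e =>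
    (mul_mem_cancel_left hωX).1 (hX (key _ (mul_mem hω ha) (by
      simpa [mul_assoc] using (e.conj hz ω).trans h.zz h4)))
  intro a ha
  rcases h.pm_cases hj h2 ((ha i).1 hi) with (e | e) | e | e
  · exact absurd e (sq a i h.ii)
  · exact hX (key a ha e)
  · exact (mul_mem_cancel_left hωX).1 (h5 _ (mul_mem hω ha) (by
      simpa [mul_assoc] using (e.conj hz ω).trans h.zz h3))
  · exact h5 a ha e

end

/-- The structure of `Sp₄(q)` around the subgroup `SL₂(q) ≀ C₂`. -/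
structure Sp4Data (z i j : Γ) (d : Γ × Γ →* G) (τ A B : G) : Prop where
  q : QPair z i j
  uniq : ∀ t : Γ, t * t = 1 → t = 1 ∨ t = z
  zc : ∀ g, g * z = z * g
  conj : ∀ a, a * a = z → IsConj i a
  cent : ∀ t, t * i = i * t → t * j = j * t → t = 1 ∨ t = z
  inj : Function.Injective d
  ττ : τ * τ = 1
  swap : ∀ a b, τ * d (a, b) = d (b, a) * τ
  cz : ∀ g, g * d (1, z) = d (1, z) * g → ∃ a b, g = d (a, b)
  central : ∀ g, g * d (z, z) = d (z, z) * g
  AA : A * A = d (i, i) * (d (1, z) * τ)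
  Ai : A * d (i, i) * A⁻¹ = d (i, i)
  Aj : A * d (j, j) * A⁻¹ = d (i, i) * d (j, j)
  Az : A * d (1, z) * A⁻¹ = τ * d (z, z)
  Aτ : A * τ * A⁻¹ = d (1, z)
  BB : B * B = d (j, j) * (d (1, z) * τ)
  Bi : B * d (i, i) * B⁻¹ = d (j, j) * d (i, i)
  Bj : B * d (j, j) * B⁻¹ = d (j, j)
  Bz : B * d (1, z) * B⁻¹ = τ * d (z, z)
  Bτ : B * τ * B⁻¹ = d (1, z)

namespace Sp4Data

variable [Finite Γ] [Finite G] {z i j : Γ} {d : Γ × Γ →* G} {τ A B : G}
  (D : Sp4Data z i j d τ A B)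
include D

omit D in
theorem dmul (a b c e : Γ) : d (a, b) * d (c, e) = d (a * c, b * e) := (map_mul d _ _).symm

omit D in
theorem dinv (a b : Γ) : (d (a, b))⁻¹ = d (a⁻¹, b⁻¹) := (map_inv d _).symm

theorem dinj {a b c e : Γ} : d (a, b) = d (c, e) ↔ a = c ∧ b = e := by
  rw [D.inj.eq_iff, Prod.mk.injEq]

theorem d_eq_one {a b : Γ} : d (a, b) = 1 ↔ a = 1 ∧ b = 1 := by
  rw [← map_one d]
  exact D.dinj

theorem τinv : τ⁻¹ = τ := inv_eq_of_mul_eq_one_right D.ττ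

theorem τ_ne (a b : Γ) : τ ≠ d (a, b) := fun e => by
  have := D.swap 1 z
  rw [e, dmul, dmul, D.dinj] at this
  exact D.q.ne (by simpa using this.2)

theorem ZZ : d (z, z) * d (z, z) = 1 := by rw [dmul, D.q.zz, D.d_eq_one]; simp

theorem mem_center {g : G} : g ∈ center G ↔ Pm (d (z, z)) g 1 := by
  rw [Subgroup.mem_center_iff]
  refine ⟨fun h => ?_, by rintro (rfl | rfl) <;> simp [D.central]⟩
  obtain ⟨a, b, rfl⟩ := D.cz g (h _).symm
  have h1 := h (d (i, i))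
  have h2 := h (d (j, j))
  have h3 := h τ
  rw [dmul, dmul, D.dinj] at h1 h2
  rw [D.swap, mul_left_inj, D.dinj] at h3
  obtain rfl := h3.1
  rcases D.cent _ h1.1.symm h2.1.symm with rfl | rfl
  · exact .inl (map_one d)
  · exact .inr (one_mul _).symm

theorem pm_of_mem_center {c r : G} (h : c * r * c⁻¹ * r⁻¹ ∈ center G) :
    Pm (d (z, z)) (c * r * c⁻¹) r := by
  rcases D.mem_center.1 h with e | e <;> rw [mul_inv_eq_iff_eq_mul] at e
  · exact .inl (by simpa using e)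
  · exact .inr (by rw [e, one_mul, D.central])

theorem pm_d {a b c e : Γ} (h : Pm (d (z, z)) (d (a, b)) (d (c, e))) :
    a = c ∧ b = e ∨ a = c * z ∧ b = e * z := by
  simpa only [Pm, dmul, D.dinj] using h

/-- The wreath product of a subgroup of `Γ` with the swap. -/
def UU (Q : Subgroup Γ) : Subgroup G := Lie.toSub
  { carrier := {g | ∃ a ∈ Q, ∃ b ∈ Q, g = d (a, b) ∨ g = d (a, b) * τ}
    one_mem' := ⟨1, one_mem Q, 1, one_mem Q, .inl (map_one d).symm⟩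
    mul_mem' := by
      rintro _ _ ⟨a, ha, b, hb, rfl | rfl⟩ ⟨c, hc, e, he, rfl | rfl⟩
      · exact ⟨_, mul_mem ha hc, _, mul_mem hb he, .inl (dmul ..)⟩
      · exact ⟨_, mul_mem ha hc, _, mul_mem hb he, .inr (by rw [← mul_assoc, dmul])⟩
      · exact ⟨_, mul_mem ha he, _, mul_mem hb hc, .inr (by
          rw [mul_assoc, D.swap, ← mul_assoc, dmul])⟩
      · exact ⟨_, mul_mem ha he, _, mul_mem hb hc, .inl (by
          rw [mul_assoc, ← mul_assoc τ, D.swap, mul_assoc, D.ττ, mul_one, dmul])⟩ }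

variable {Q : Subgroup Γ}

theorem τ_mem : τ ∈ D.UU Q := ⟨1, one_mem Q, 1, one_mem Q, .inr (by simp [show d (1, 1) = 1 from
  map_one d])⟩

theorem d_mem_iff {a b : Γ} : d (a, b) ∈ D.UU Q ↔ a ∈ Q ∧ b ∈ Q := by
  refine ⟨?_, fun h => ⟨a, h.1, b, h.2, .inl rfl⟩⟩
  rintro ⟨c, hc, e, he, h | h⟩
  · rw [D.dinj] at h
    exact ⟨h.1 ▸ hc, h.2 ▸ he⟩
  · rw [← inv_mul_eq_iff_eq_mul, dinv, dmul] at h
    exact absurd h.symm (D.τ_ne _ _)

theorem isPGroup_UU (hQ : IsPGroup 2 Q) : IsPGroup 2 (D.UU Q) := fun ⟨g, hg⟩ => by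
  have key : ∀ a ∈ Q, ∀ b ∈ Q, ∃ k, d (a, b) ^ 2 ^ k = 1 := fun a ha b hb => by
    obtain ⟨k, hk⟩ := pow_eq_one_of_mem hQ ha
    obtain ⟨l, hl⟩ := pow_eq_one_of_mem hQ hb
    refine ⟨k + l, ?_⟩
    rw [← map_pow, Prod.pow_mk, D.d_eq_one]
    exact ⟨by rw [pow_add, pow_mul, hk, one_pow], by rw [pow_add, pow_mul', hl, one_pow]⟩
  obtain ⟨a, ha, b, hb, rfl | rfl⟩ := hg
  · exact (key a ha b hb).imp fun _ h => Subtype.ext h
  · obtain ⟨k, hk⟩ := key _ (mul_mem ha hb) _ (mul_mem hb ha)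
    refine ⟨k + 1, Subtype.ext ?_⟩
    rw [coe_pow, pow_succ', pow_mul, sq, mul_assoc, ← mul_assoc τ, D.swap, mul_assoc, D.ττ,
      mul_one, dmul, hk, coe_one]

theorem dd_comm_τ (a : Γ) : d (a, a) * τ * (d (a, a))⁻¹ = τ := by
  rw [← D.swap, mul_inv_cancel_right]

theorem dd_mem_normalizer {a : Γ} (ha : a ∈ normalizer (Q : Set Γ)) :
    d (a, a) ∈ normalizer (D.UU Q : Set G) := mem_normalizer_of_conj_mem (by
  have key : ∀ b ∈ Q, ∀ c ∈ Q, d (a, a) * d (b, c) * (d (a, a))⁻¹ ∈ D.UU Q := fun b hb c hc => by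
    rw [dinv, dmul, dmul]
    exact D.d_mem_iff.2 ⟨(ha b).1 hb, (ha c).1 hc⟩
  rintro _ ⟨b, hb, c, hc, rfl | rfl⟩
  · exact key b hb c hc
  · rw [← conj_mul, D.dd_comm_τ]
    exact mul_mem (key b hb c hc) D.τ_mem)

theorem pm_ζ (hi : i ∈ Q) (hj : j ∈ Q) {x : G} (hx : x ∈ D.UU Q) (hx' : x ∉ center G)
    (h : ∀ u ∈ D.UU Q, u * x * u⁻¹ * x⁻¹ ∈ center G) : Pm (d (z, z)) x (d (1, z)) := by
  have h1 := D.pm_of_mem_center (h _ (D.d_mem_iff.2 ⟨hi, one_mem Q⟩))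
  have h2 := D.pm_of_mem_center (h _ (D.d_mem_iff.2 ⟨hj, one_mem Q⟩))
  have h3 := D.pm_of_mem_center (h _ (D.d_mem_iff.2 ⟨one_mem Q, hi⟩))
  have h4 := D.pm_of_mem_center (h _ (D.d_mem_iff.2 ⟨one_mem Q, hj⟩))
  have h0 := D.q.ne
  obtain ⟨a, -, b, -, rfl | rfl⟩ := hx
  · simp only [dinv, dmul] at h1 h2 h3 h4
    have h5 := (D.pm_d h1).resolve_right (by simp [h0])
    have h6 := (D.pm_d h2).resolve_right (by simp [h0])
    have h7 := (D.pm_d h3).resolve_right (by simp [h0])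
    have h8 := (D.pm_d h4).resolve_right (by simp [h0])
    simp only [mul_inv_eq_iff_eq_mul] at h5 h6 h7 h8
    rcases D.cent _ h5.1.symm h6.1.symm with rfl | rfl <;>
      rcases D.cent _ h7.2.symm h8.2.symm with rfl | rfl
    · exact absurd (D.mem_center.2 (.inl (map_one d))) hx'
    · exact .inl rfl
    · exact .inr (by rw [dmul, D.q.zz, one_mul])
    · exact absurd (D.mem_center.2 (.inr (one_mul _).symm)) hx'
  · rw [dinv, mul_assoc, mul_assoc, D.swap, ← mul_assoc, ← mul_assoc, dmul, dmul, Pm,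
      mul_assoc _ τ, D.central, ← mul_assoc, dmul, mul_left_inj, mul_left_inj, D.dinj,
      D.dinj] at h1
    refine absurd ((mem_zpowers_of_mul_self D.q.zz).2 ?_) D.q.i_not_mem
    simpa [D.zc a] using h1.imp And.left And.left

theorem τζ : τ * d (1, z) * τ⁻¹ = d (1, z) * d (z, z) := by
  rw [D.swap, mul_inv_cancel_right, dmul, D.q.zz, one_mul]

theorem exists_of_mem_normalizer (hi : i ∈ Q) (hj : j ∈ Q) {g : G}
    (hg : g ∈ normalizer (D.UU Q : Set G)) :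
    ∃ a ∈ normalizer (Q : Set Γ), ∃ u ∈ D.UU Q, g = d (a, a) * u := by
  have hz : z ∈ Q := D.q.ii ▸ mul_mem hi hi
  have key : ∀ g ∈ normalizer (D.UU Q : Set G), g * d (1, z) * g⁻¹ = d (1, z) →
      ∃ a ∈ normalizer (Q : Set Γ), ∃ u ∈ D.UU Q, g = d (a, a) * u := fun g hg h => by
    obtain ⟨a, b, rfl⟩ := D.cz g (mul_inv_eq_iff_eq_mul.1 h)
    have ha : a ∈ normalizer (Q : Set Γ) := mem_normalizer_of_conj_mem fun q hq => by
      have := (hg _).1 (D.d_mem_iff.2 ⟨hq, one_mem Q⟩)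
      rw [dinv, dmul, dmul] at this
      exact (D.d_mem_iff.1 this).1
    have := mul_mem ((hg _).1 D.τ_mem) D.τ_mem
    rw [dinv, mul_assoc (d _), D.swap, mul_assoc, mul_assoc, D.ττ, mul_one, dmul] at this
    exact ⟨a, ha, d (1, a⁻¹ * b), D.d_mem_iff.2 ⟨one_mem Q, by
      simpa [mul_assoc] using (inv_mem ha _).1 (D.d_mem_iff.1 this).2⟩, by simp [dmul]⟩
  rcases D.pm_ζ hi hj ((hg _).1 (D.d_mem_iff.2 ⟨one_mem Q, hz⟩)) (fun e => by
      have := D.mem_center.1 (normal_of_characteristic (center G) |>.mem_comm_iff.1 e)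
      rw [inv_mul_cancel_left, ← map_one d] at this
      simpa [D.q.ne, D.q.ne.symm] using D.pm_d this) (fun u hu => by
      have : g⁻¹ * u * g⁻¹⁻¹ * d (1, z) * (g⁻¹ * u * g⁻¹⁻¹)⁻¹ * (d (1, z))⁻¹ ∈ center G := by
        obtain ⟨a, -, b, -, e | e⟩ := (inv_mem hg u).1 hu <;> rw [e]
        · simp [dinv, dmul, D.zc b, show d (1, 1) = 1 from map_one d]
        · rw [show d (a, b) * τ * d (1, z) * (d (a, b) * τ)⁻¹ =
            d (a, b) * (τ * d (1, z) * τ⁻¹) * (d (a, b))⁻¹ by group, D.τζ]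
          exact D.mem_center.2 (.inr (by simp [dinv, dmul, D.zc a, D.q.zz, inv_eq_of_mul_eq_one_right
            D.q.zz]))
      simpa [mul_assoc] using (normal_of_characteristic (center G)).conj_mem _ this g) with e | e
  · exact key g hg e
  · obtain ⟨a, ha, u, hu, e'⟩ := key (τ * g) (mul_mem (le_normalizer D.τ_mem) hg) (by
      rw [show τ * g * d (1, z) * (τ * g)⁻¹ = τ * (g * d (1, z) * g⁻¹) * τ⁻¹ by group, e, ← D.τζ,
        D.τinv, ← mul_assoc, ← mul_assoc, D.ττ, one_mul, mul_assoc, D.ττ, mul_one])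
    exact ⟨a, ha, τ * u, mul_mem D.τ_mem hu, by
      rw [← mul_assoc, ← D.swap, mul_assoc, ← e', ← mul_assoc, D.ττ, one_mul]⟩

theorem sc (hQ : IsPGroup 2 Q) (hi : i ∈ Q) (hj : j ∈ Q) (T : Subgroup G) (hT : T ≤ D.UU Q)
    (hK : D.UU Q ⊓ center G ≤ T) (hne : ¬ T ≤ center G)
    (hsc : ∀ t ∈ T, ∀ g, g * t * g⁻¹ ∈ D.UU Q → g * t * g⁻¹ ∈ T) : D.UU Q ≤ T := by
  have hz : z ∈ Q := D.q.ii ▸ mul_mem hi hi
  have hU : ∀ u ∈ D.UU Q, ∀ t ∈ T, u * t * u⁻¹ ∈ T := fun u hu t ht =>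
    hsc t ht u (mul_mem (mul_mem hu (hT ht)) (inv_mem hu))
  have hZ : d (z, z) ∈ T := hK ⟨D.d_mem_iff.2 ⟨hz, hz⟩, D.mem_center.2 (.inr (one_mul _).symm)⟩
  obtain ⟨x, hx, hx', h⟩ := exists_central_mod_of_isPGroup (D.isPGroup_UU hQ) hT hU
    (fun u _ t ht => (normal_of_characteristic (center G)).conj_mem t ht u) hne
  have hζ : d (1, z) ∈ T := by
    rcases D.pm_ζ hi hj (hT hx) hx' h with rfl | rfl
    exacts [hx, (mul_mem_cancel_right hZ).1 hx]
  have hτ : τ ∈ T := (mul_mem_cancel_right hZ).1 (D.Az ▸ hsc _ hζ A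
    (D.Az ▸ mul_mem D.τ_mem (hT hZ)))
  have h1 : d (i, i) ∈ T := by
    have := mul_mem (mul_mem (hU _ (D.d_mem_iff.2 ⟨hi, one_mem Q⟩) τ hτ) hτ) hζ
    rwa [dinv, mul_assoc (d _), D.swap, mul_assoc, mul_assoc, mul_assoc, ← mul_assoc τ, D.ττ,
      one_mul, dmul, dmul, inv_one, ← D.q.ii, one_mul, mul_one, one_mul,
      inv_mul_cancel_left] at this
  have h2 : ∀ {a b c e}, d (a, b) ∈ T → IsConj a c → IsConj b e → c ∈ Q → e ∈ Q → d (c, e) ∈ T :=
    fun h h1 h2 h3 h4 => by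
      obtain ⟨x, rfl⟩ := _root_.isConj_iff.1 h1
      obtain ⟨y, rfl⟩ := _root_.isConj_iff.1 h2
      have := hsc _ h (d (x, y))
      rw [dinv, dmul, dmul] at this
      exact this (D.d_mem_iff.2 ⟨h3, h4⟩)
  have h3 : d (1, i * j) ∈ T := by
    have := mul_mem (mul_mem hζ (inv_mem h1)) (h2 h1 (IsConj.refl _) (D.conj _ D.q.jj) hi hj)
    rwa [dinv, dmul, dmul, one_mul, inv_mul_cancel, ← D.q.ii, mul_inv_cancel_right] at this
  have h4 : Q ≤ T.comap (d.comp (.inr Γ Γ)) := quat_le hQ D.q (fun t _ => D.uniq t) hi hj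
    fun g hg hgz => h2 h3 (IsConj.refl _) ((D.conj _ D.q.kk).symm.trans (D.conj _ hgz)) (one_mem Q) hg
  have h5 : ∀ a ∈ Q, ∀ b ∈ Q, d (a, b) ∈ T := fun a ha b hb => by
    have := mul_mem (mul_mem (mul_mem hτ (h4 ha)) (inv_mem hτ)) (h4 hb)
    simpa [D.swap, dmul] using this
  rintro _ ⟨a, ha, b, hb, rfl | rfl⟩
  exacts [h5 a ha b hb, mul_mem (h5 a ha b hb) hτ]

theorem centricMod : CentricMod 2 (closure {d (i, i), d (j, j), d (1, z), τ}) (center G) := by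
  intro c _ hc
  let R : Subgroup G := closure {d (i, i), d (j, j), d (1, z), τ}
  let P : G → Prop := fun c => Pm (d (z, z)) (c * d (i, i) * c⁻¹) (d (i, i)) ∧
    Pm (d (z, z)) (c * d (j, j) * c⁻¹) (d (j, j)) ∧ Pm (d (z, z)) (c * d (1, z) * c⁻¹) (d (1, z)) ∧
    Pm (d (z, z)) (c * τ * c⁻¹) τ
  have mul : ∀ {c c'}, P c → P c' → P (c * c') := fun h h' =>
    ⟨h.1.conj_mul D.ZZ D.central h'.1, h.2.1.conj_mul D.ZZ D.central h'.2.1,
      h.2.2.1.conj_mul D.ZZ D.central h'.2.2.1, h.2.2.2.conj_mul D.ZZ D.central h'.2.2.2⟩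
  have ζτ : d (1, z) * τ * (d (1, z))⁻¹ = τ * d (z, z) := by
    rw [← D.swap, mul_assoc, dinv, dmul, inv_eq_of_mul_eq_one_right D.q.zz]
    simp
  have Pτ : P τ := ⟨.inl (by simp [D.swap]), .inl (by simp [D.swap]), .inr D.τζ, .inl (by simp)⟩
  have Pζ : P (d (1, z)) := ⟨.inl (by simp [dinv, dmul, ← D.zc]),
    .inl (by simp [dinv, dmul, ← D.zc]), .inl (by simp), .inr ζτ⟩
  have k1 : ∀ c, P c → c * d (1, z) * c⁻¹ = d (1, z) → c * τ * c⁻¹ = τ → c ∈ R :=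
    fun c h h1 h2 => by
      obtain ⟨a, b, rfl⟩ := D.cz c (mul_inv_eq_iff_eq_mul.1 h1)
      rw [mul_inv_eq_iff_eq_mul, D.swap, mul_left_inj, D.dinj] at h2
      obtain rfl := h2.1
      obtain ⟨h3, h4, -⟩ := h
      simp only [dinv, dmul] at h3 h4
      exact D.q.mem_of_pm D.zc D.cent (Q := R.comap (d.comp ((MonoidHom.id Γ).prod (.id Γ))))
        (subset_closure (by simp)) (subset_closure (by simp))
        ((D.pm_d h3).imp And.left And.left) ((D.pm_d h4).imp And.left And.left)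
  have k2 : ∀ c, P c → c * d (1, z) * c⁻¹ = d (1, z) → c ∈ R := fun c h h1 => by
    rcases h.2.2.2 with h2 | h2
    · exact k1 c h h1 h2
    refine (mul_mem_cancel_left (subset_closure (by simp))).1 (k1 _ (mul Pζ h) ?_ ?_)
    · rw [show d (1, z) * c * d (1, z) * (d (1, z) * c)⁻¹ =
        d (1, z) * (c * d (1, z) * c⁻¹) * (d (1, z))⁻¹ by group, h1, mul_inv_cancel_right]
    · rw [show d (1, z) * c * τ * (d (1, z) * c)⁻¹ =
        d (1, z) * (c * τ * c⁻¹) * (d (1, z))⁻¹ by group, h2, mul_assoc, mul_assoc, ← D.central,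
        ← mul_assoc, ← mul_assoc, ζτ, mul_assoc, D.ZZ, mul_one]
  have h : P c := ⟨D.pm_of_mem_center (hc _ (subset_closure (by simp))),
    D.pm_of_mem_center (hc _ (subset_closure (by simp))),
    D.pm_of_mem_center (hc _ (subset_closure (by simp))),
    D.pm_of_mem_center (hc _ (subset_closure (by simp)))⟩
  refine mem_sup_left ?_
  rcases h.2.2.1 with h1 | h1
  · exact k2 c h h1
  refine (mul_mem_cancel_left (subset_closure (by simp))).1 (k2 _ (mul Pτ h) ?_)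
  rw [show τ * c * d (1, z) * (τ * c)⁻¹ = τ * (c * d (1, z) * c⁻¹) * τ⁻¹ by group, h1, ← D.τζ,
    D.τinv, ← mul_assoc, ← mul_assoc, D.ττ, one_mul, mul_assoc, D.ττ, mul_one]

theorem good (hQ : IsSylowIn 2 Q ⊤) (hi : i ∈ Q) (hj : j ∈ Q) {a : Γ}
    (ha : a ∈ normalizer (Q : Set Γ)) : Good 2 (D.UU Q) (center G) (D.UU Q) (d (a, a)) := by
  let X := (goodSubgroup 2 (D.UU Q) (center G) le_rfl).comap
    (d.comp ((MonoidHom.id Γ).prod (.id Γ)))
  have hX : Q ≤ X := fun q hq => Good.of_mem (D.isPGroup_UU hQ.isPGroup) le_rfl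
    (D.d_mem_iff.2 ⟨hq, hq⟩) (le_normalizer (D.d_mem_iff.2 ⟨hq, hq⟩))
  show a ∈ X
  by_cases hw : ∃ w ∈ Q, w ^ 4 ≠ 1
  · obtain ⟨w, hw, hw4⟩ := hw
    obtain ⟨x, y, hx, hy, rfl, ⟨k, hk⟩, ho⟩ := exists_pPart_mul (p := 2) (isOfFinOrder_of_finite a)
    refine mul_mem (hX (hQ.le_of_le_normalizer le_top (isPGroup_zpowers_of_pow hk)
      ((zpowers_le.2 hx).trans (zpowers_le.2 ha)) (mem_zpowers x))) (Good.of_comm le_rfl ?_)
    have h1 := comm_of_quat_large hQ.isPGroup D.q (fun t _ => D.uniq t) hi hj hw hw4 ho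
      fun q hq => (zpowers_le.2 ha hy q).1 hq
    have h2 : ∀ b ∈ Q, ∀ c ∈ Q, d (y, y) * d (b, c) = d (b, c) * d (y, y) := fun b hb c hc => by
      rw [dmul, dmul, h1 b hb, h1 c hc]
    rintro _ ⟨b, hb, c, hc, rfl | rfl⟩
    · exact h2 b hb c hc
    · show d (y, y) * _ = _ * d (y, y)
      rw [← mul_assoc, h2 b hb c hc, mul_assoc, mul_assoc, D.swap]
  push Not at hw
  have h2 := relIndex_of_quat_small hQ.isPGroup D.q (fun t _ => D.uniq t) hi hj hw hi D.q.ii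
  have hz : z ∈ Q := D.q.ii ▸ mul_mem hi hi
  have e1 : ∀ {x y}, A * x * A⁻¹ = B * y * B⁻¹ → A⁻¹ * B * y * (A⁻¹ * B)⁻¹ = x := fun {x y} h => by
    rw [show A⁻¹ * B * y * (A⁻¹ * B)⁻¹ = A⁻¹ * (B * y * B⁻¹) * A by group, ← h]
    group
  obtain ⟨ω, ω', e⟩ := D.cz (A⁻¹ * B) (mul_inv_eq_iff_eq_mul.1 (e1 (D.Az.trans D.Bz.symm)))
  obtain rfl : ω = ω' := by
    have := e1 (D.Aτ.trans D.Bτ.symm)
    rw [e, mul_inv_eq_iff_eq_mul, D.swap, mul_left_inj, D.dinj] at this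
    exact this.1
  have AZ : A * d (z, z) * A⁻¹ = d (z, z) := by rw [D.central, mul_inv_cancel_right]
  have h3 : ω * i * ω⁻¹ = j * z := by
    have := e1 (x := d (j, j) * d (z, z)) (y := d (i, i)) (by
      rw [← conj_mul, D.Aj, AZ, D.Bi, dmul, dmul, dmul, D.q.ji])
    rw [e, dinv, dmul, dmul, dmul, D.dinj] at this
    exact this.1
  have h4 : ω * j * ω⁻¹ = i⁻¹ * j := by
    have := e1 (x := (d (i, i))⁻¹ * d (j, j)) (y := d (j, j)) (by
      rw [← conj_mul, ← conj_inv, D.Ai, D.Aj, D.Bj, inv_mul_cancel_left])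
    rw [e, dinv, dinv, dmul, dmul, dmul, D.dinj] at this
    exact this.1
  have h5 : i⁻¹ = i * z := by rw [inv_eq_iff_mul_eq_one, ← mul_assoc, D.q.ii, D.q.zz]
  have hω : ω ∈ normalizer (Q : Set Γ) := mem_normalizer_of_conj_mem fun q hq => by
    have e2 : ω * z * ω⁻¹ ∈ Q := by rwa [D.zc, mul_inv_cancel_right]
    have e3 : ω * i * ω⁻¹ ∈ Q := h3 ▸ mul_mem hj hz
    have e4 : ω * j * ω⁻¹ ∈ Q := h4 ▸ mul_mem (inv_mem hi) hj
    let Y := Q.comap (MulAut.conj ω).toMonoidHom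
    have e5 : ∀ x ∈ Y, Pm z q x → q ∈ Y := by
      rintro x hx (rfl | rfl)
      exacts [hx, mul_mem hx e2]
    rcases D.q.pm_cases hj h2 hq with (e | e) | e | e
    exacts [e5 _ (one_mem Y) e, e5 _ e3 e, e5 _ e4 e, e5 _ (mul_mem e3 e4) e]
  refine D.q.normalizer_le D.zc D.cent hQ hi hj h2 hω (.inr ?_) (.inl ?_) hX ?_ ha
  · rw [h4, h5, mul_assoc, ← D.zc, mul_assoc]
  · rw [← conj_mul, h3, h4, h5, D.zc i, ← mul_assoc, ← mul_assoc, mul_assoc j, D.q.zz, mul_one,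
      D.q.ji, mul_assoc, ← D.zc, ← mul_assoc, mul_assoc i, D.q.jj, mul_assoc, D.q.zz, mul_one]
  let R : Subgroup G := closure {d (i, i), d (j, j), d (1, z), τ}
  have r1 : d (i, i) ∈ R := subset_closure (by simp)
  have r2 : d (j, j) ∈ R := subset_closure (by simp)
  have r3 : d (1, z) ∈ R := subset_closure (by simp)
  have r4 : τ ∈ R := subset_closure (by simp)
  have r5 : τ * d (z, z) ∈ R := mul_mem r4 (by simpa [dmul, D.q.ii] using mul_mem r1 r1)
  have hR : R ≤ D.UU Q := (closure_le _).2 (by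
    rintro _ (rfl | rfl | rfl | rfl)
    exacts [D.d_mem_iff.2 ⟨hi, hi⟩, D.d_mem_iff.2 ⟨hj, hj⟩, D.d_mem_iff.2 ⟨one_mem Q, hz⟩, D.τ_mem])
  have pw : ∀ {C : G} {c : Γ}, c * c = z → C * C = d (c, c) * (d (1, z) * τ) → C ^ 2 ^ 2 = 1 :=
    fun {C c} hc h => by
      rw [show 2 ^ 2 = 2 * 2 from rfl, pow_mul, sq C, sq, h, ← mul_assoc (d (c, c)) (d (1, z)),
        dmul, mul_assoc, ← mul_assoc τ, D.swap, mul_assoc (d _), D.ττ, mul_one, mul_one, dmul,
        D.d_eq_one, ← mul_assoc, hc, D.q.zz, mul_assoc, ← D.zc, ← mul_assoc, hc, D.q.zz]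
      exact ⟨rfl, rfl⟩
  show Good 2 _ _ _ (d (ω, ω))
  refine Good.up hR le_rfl D.centricMod (D.dd_mem_normalizer hω) (e ▸ Good.mul (Good.inv
    (Good.pel hR (mem_normalizer_closure ?_) (pw D.q.ii D.AA)))
    (Good.pel hR (mem_normalizer_closure ?_) (pw D.q.jj D.BB))) <;>
    rintro _ (rfl | rfl | rfl | rfl)
  exacts [D.Ai.symm ▸ r1, D.Aj.symm ▸ mul_mem r1 r2, D.Az.symm ▸ r5, D.Aτ.symm ▸ r3,
    D.Bi.symm ▸ mul_mem r2 r1, D.Bj.symm ▸ r2, D.Bz.symm ▸ r5, D.Bτ.symm ▸ r3]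

theorem exists_crit : ∃ U, Crit 2 U (center G) := by
  obtain ⟨Q, hQ, hle⟩ := exists_isSylowIn_ge D.q.isPGroup le_top
  have hi : i ∈ Q := hle (subset_closure (by simp))
  have hj : j ∈ Q := hle (subset_closure (by simp))
  have hU := D.isPGroup_UU hQ.isPGroup
  refine ⟨D.UU Q, isSylowIn_top_of_normalizer hU fun g hg ⟨k, hk⟩ => ?_, fun h => ?_,
    D.sc hQ.isPGroup hi hj, fun g hg _ => ?_⟩
  · obtain ⟨a, ha, u, hu, e⟩ := D.exists_of_mem_normalizer hi hj hg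
    obtain ⟨m, hm⟩ := pow_eq_one_of_mem ((isPGroup_zpowers_of_pow hk).to_sup_of_normal_right' hU
      (zpowers_le.2 hg)) (mul_mem (mem_sup_left (mem_zpowers g)) (mem_sup_right (inv_mem hu)))
    rw [e, mul_inv_cancel_right, ← map_pow, Prod.pow_mk, D.d_eq_one] at hm
    have := hQ.le_of_le_normalizer le_top (isPGroup_zpowers_of_pow hm.1) (zpowers_le.2 ha)
      (mem_zpowers a)
    exact e ▸ mul_mem (D.d_mem_iff.2 ⟨this, this⟩) hu
  · rcases D.mem_center.1 (h D.τ_mem) with e | e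
    exacts [D.τ_ne 1 1 (e.trans (map_one d).symm), D.τ_ne z z (by simpa using e)]
  · obtain ⟨a, ha, u, hu, rfl⟩ := D.exists_of_mem_normalizer hi hj hg
    exact (D.good hQ hi hj ha).mul (Good.of_mem hU le_rfl hu (le_normalizer hu))

end Sp4Data

end Cfsg.Agent.Fus
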