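import Cfsg.Agent.Lib.Fus.PPrime
import Cfsg.Agent.Lib.Fus2.Hyper

/-!
Extremely sparse fusion systems.
-/

set_option autoImplicit false

namespace Cfsg.Agent.Fus

open Cfsg Cfsg.FusionSystem Cfsg.Agent.Fus2

variable {Ω : Type*} [Group Ω] {S : Subgroup Ω} {F : FusionSystem S} {P : Subgroup Ω} {p : ℕ}

theorem le_normalizer_Inn (A : Subgroup (MulAut P)) :
    A ≤ Subgroup.normalizer (Inn P : Set (MulAut P)) :=
  le_top.trans ((Subgroup.normal_subgroupOf_iff_le_normalizer le_top).1 (Inn_subgroupOf_normal ⊤))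

theorem isSylowIn_Inn_sup_zpowers [Fact p.Prime] (hP : IsPGroup p P) {α : MulAut P}
    (hα : (orderOf α).Coprime p) : IsSylowIn p (Inn P) (Inn P ⊔ Subgroup.zpowers α) := by
  refine isSylowIn_of_not_dvd le_sup_left (isPGroup_Inn hP) fun h => ?_
  rw [sup_comm, relIndex_sup_of_le_normalizer (le_normalizer_Inn _)] at h
  have h1 := h.trans (Subgroup.relIndex_dvd_card _ _)
  rw [Nat.card_zpowers] at h1
  exact (Fact.out : p.Prime).one_lt.ne' (Nat.Coprime.eq_one_of_dvd hα.symm h1)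

theorem exists_prime_aut_of_not_isPGroup [Finite P] [Fact p.Prime] {A : Subgroup (MulAut P)}
    (h : ¬ IsPGroup p A) : ∃ α ∈ A, (orderOf α).Prime ∧ orderOf α ≠ p := by
  have := finite_mulAut P
  by_contra hc
  push Not at hc
  refine h (IsPGroup.of_card (n := (Nat.card A).primeFactorsList.length)
    (Nat.eq_prime_pow_of_unique_prime_dvd Nat.card_pos.ne' fun {q} hq hd => ?_))
  have : Fact q.Prime := ⟨hq⟩
  obtain ⟨x, hx⟩ := exists_prime_orderOf_dvd_card' q hd
  have hx' : orderOf (x : MulAut P) = q := by rw [Subgroup.orderOf_coe, hx]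
  exact hx' ▸ hc x x.2 (hx' ▸ hq)

variable [Finite S] [hp : Fact p.Prime] (hS : IsPGroup p S)
  (hxs : ∀ (T : Subgroup Ω) (E : FusionSystem T), E.IsSaturated p → E.IsSubsystemOf F →
    (T = S ∧ ∀ P : Subgroup Ω, E.Hom P = F.Hom P) ∨
      (∀ P : Subgroup Ω, E.Hom P = (innerFusionSystem T).Hom P))
include hS hxs

theorem sparse_key (hP : P ≤ S) {α : MulAut P} (hα : α ∈ F.autGroup P)
    (hc : (orderOf α).Coprime p) (h1 : α ≠ 1) :
    P = S ∧ F.autGroup P = Inn P ⊔ Subgroup.zpowers α ∧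
      ∀ Q f, M F Q f → ∃ β : MulAut P, ∀ x ∈ Q, afn β x = f x := by
  have := Fus.finite_of_le hP
  have hPp := isPGroup_of_le hS hP
  have hY : Inn P ⊔ Subgroup.zpowers α ≤ F.autGroup P :=
    sup_le (Inn_le_autGroup hP) (Subgroup.zpowers_le.2 hα)
  have hi : InvBy (innerFusionSystem P) (Inn P ⊔ Subgroup.zpowers α) :=
    AutInv.invBy autInv_inner hY
  have hle : (innerFusionSystem P).autGroup P ≤ Inn P ⊔ Subgroup.zpowers α := by
    rw [inner_autGroup le_rfl, autInducedBy_self]; exact le_sup_left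
  have hsat := autExt_saturated hPp (inner_isSaturated hPp) hi hle
    (isSylowIn_Inn_sup_zpowers hPp hc)
  have haut := autGroup_autExt hi hle
  rcases hxs P _ hsat (autExt_sub hi (inner_isSubsystemOf hP) hY) with ⟨rfl, h⟩ | h
  · have e := fs_ext h
    refine ⟨rfl, e ▸ haut, fun Q f hf => ?_⟩
    rw [← e] at hf
    obtain ⟨β, -, f₀, hf₀, e'⟩ := (M_autExt_iff hi).1 hf
    obtain ⟨hQ, g, hg, e''⟩ := M_inner_iff.1 hf₀
    refine ⟨β * conjAut P g (Subgroup.le_normalizer hg), fun x hx => ?_⟩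
    rw [e' x hx, afn_mul, e'' x hx, afn_conjAut _ (hQ hx)]
  · exfalso
    rw [fs_ext h, inner_autGroup le_rfl, autInducedBy_self] at haut
    have h2 : α ∈ Inn P := haut ▸ Subgroup.mem_sup_right (Subgroup.mem_zpowers α)
    obtain ⟨k, hk⟩ := isPGroup_Inn hPp ⟨α, h2⟩
    have hk' : α ^ p ^ k = 1 := by simpa using congrArg Subtype.val hk
    exact h1 (orderOf_eq_one_iff.1 ((hc.pow_right k).eq_one_of_dvd (orderOf_dvd_of_pow_eq_one hk')))

theorem sparse_main (hF : F.IsSaturated p)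
    (hni : ¬ (∀ P : Subgroup Ω, F.Hom P = (innerFusionSystem S).Hom P)) :
    F.IsNormal S ∧ F.focalSubgroup = S ∧ F.hyperfocalSubgroup p = S ∧
      ∃ (q : ℕ) (β : MulAut S), q.Prime ∧ q ≠ p ∧ β ∈ F.autGroup S ∧ orderOf β = q ∧
        (F.autGroup S : Subgroup (MulAut S)) = Inn S ⊔ Subgroup.zpowers β := by
  have h1 : ∃ P, P ≤ S ∧ ¬ IsPGroup p (F.autGroup P) := by
    by_contra hc
    push Not at hc
    exact hni fun P => by rw [eq_inner_of_isPGroup hS hF hc]
  obtain ⟨P, hP, hnp⟩ := h1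
  have := Fus.finite_of_le hP
  obtain ⟨α, hα, hq, hqp⟩ := exists_prime_aut_of_not_isPGroup hnp
  have hc : (orderOf α).Coprime p := (Nat.coprime_primes hq hp.out).2 hqp
  have hα1 : α ≠ 1 := fun h => hq.one_lt.ne' (by rw [h, orderOf_one])
  obtain ⟨rfl, haut, hctl⟩ := sparse_key hS hxs hP hα hc hα1
  have hT := hyp_le F p
  have hhyp : F.hyperfocalSubgroup p = P := by
    have := Fus.finite_of_le hT
    obtain ⟨γ, hγ, e⟩ := ((M_afn le_rfl hα).mono hT).exists_aut' fun x hx =>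
      afn_mem_of_sc le_rfl hα (sc_hyp hS hF) (hT hx) hx
    have hγc : (orderOf γ).Coprime p := Nat.Coprime.coprime_dvd_left
      (orderOf_dvd_of_rel (a := id) (P := F.hyperfocalSubgroup p) (fun y hy => ⟨y, hy, rfl⟩)
        (α := γ) (β := γ) (fun _ _ => rfl) |>.trans ?_) hc
    · refine (sparse_key hS hxs hT hγ hγc fun h0 => ?_).1
      obtain ⟨k, hk⟩ := exists_pow_eq_one_of_fix (Q := F.hyperfocalSubgroup p) hS (α := α)
        (fun x _ hx => by rw [← e x hx, h0, afn_one]) fun x hx => mem_hyp_of_coprime le_rfl hα hc hx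
      exact hα1 (orderOf_eq_one_iff.1
        ((hc.pow_right k).eq_one_of_dvd (orderOf_dvd_of_pow_eq_one hk)))
    · refine orderOf_dvd_of_pow_eq_one (aut_ext fun x hx => ?_)
      rw [afn_one]
      have key : ∀ n : ℕ, ∀ x ∈ F.hyperfocalSubgroup p, afn (γ ^ n) x = afn (α ^ n) x := by
        intro n
        induction n with
        | zero => intro x _; rw [pow_zero, pow_zero, afn_one, afn_one]
        | succ n ih =>
          intro x hx
          rw [pow_succ, pow_succ, afn_mul, afn_mul, ih _ (afn_mem γ hx), e x hx]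
      rw [key _ x hx, pow_orderOf_eq_one, afn_one]
  refine ⟨isNormal_of_aut_controls hS hF le_rfl fun Q f _ hf => hctl Q f hf,
    le_antisymm (foc_le F) (hhyp.ge.trans (hyp_le_foc F p)), hhyp, _, α, hq, hqp, hα, rfl, haut⟩

end Cfsg.Agent.Fus
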